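import Cfsg.Agent.H496.Mono.Stmt
import Cfsg.Agent.H185.EE.PerfSet

/-!
# S2187, X4, piece M8a: the end (helper225)

* `mem_MMZ`, `mem_Sup` : an `r`-element commuting with a finite set `Z` of `p`-elements of the torus, `p ≠ r`, is in the
  group generated by the root groups centralised by `Z`;
* `end_general` : `E' ≤ T` elementary abelian, fixed by `τ`; if the `r`-elements of the groups
  `⟨X a : a trivial on F'⟩`, `F'` a hyperplane of `E'`, fixed by `τ`, are in `HZ m p E z`, then `GamY m.ι p E = ⊤`;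
* `pm_of_mod` : roots `a`, `b` with `b - j a ∈ p Λ` satisfy `b = ± a` (table check `chkP D p`);
* `end_eps` : `γ = ± 1` : the case `E' = T[p]`; `p8a : P8a m`; `end_E8_five` : type `E₈`, `p = 5`.
-/

set_option autoImplicit false
set_option linter.unusedSectionVars false

namespace Cfsg.Agent.H225.Mono

section Tower

open CoxeterSystem Cfsg.Agent.ChevalleyStructure.CoxeterGeom Cfsg.Agent.Tits.Roots Cfsg.Agent.Tits.Core
  Cfsg.Agent.Tits.RootComb Cfsg.Agent.Tits.Exchange Cfsg.Agent.Nodes.Reps Cfsg.Agent.Nodes.BNOf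
  Cfsg.Agent.Nodes.StabComb Cfsg.Agent.Nodes.Bruhat Cfsg.Agent.Nodes.OppDec Cfsg.Agent.Nodes.LeviDec
  Cfsg.Agent.Nodes.NormalForm Cfsg.Agent.Nodes.SubComb Cfsg.Agent.Nodes.Coroot Cfsg.Agent.KFacts.RgdField
  Cfsg.Agent.BpExc.TorCent Cfsg.Agent.BpExc.Tow Cfsg.Agent.BpExc.Fr Cfsg.Agent.BpExc.Pair Cfsg.Agent.H795.SetCent
  Cfsg.Agent.H185.EE

universe u

variable {I W : Type*} {Y : Type u} [Fintype I] [DecidableEq I] [Group W] [Group Y] {M : CoxeterMatrix I}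
  {cs : CoxeterSystem M W} {A : I → I → ℤ} {h : IsCartan M A} {r : ℕ}
  {J : Type*} [Preorder J] {T : J → Subgroup Y} {n : I → Y} {X : J → (I → ℤ) → Subgroup Y}
  (H : Tow cs h r T n X) {F : Type*} [Field F] {xx : (I → ℤ) → F → Y} {χ : (I → ℤ) → Y → F}
  (C : Coords cs h (TL T) n (XL X) xx χ)

/-- an element of order `r ^ j` is a power of its `i`-th power, `i` prime to `r` -/
theorem exists_pow_eq {u : Y} {j i : ℕ} (hr : r.Prime) (hu : u ^ r ^ j = 1) (hi : i.Coprime r) :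
    ∃ m : ℕ, u = (u ^ i) ^ m := by
  have h2 : orderOf u ∣ r ^ j := orderOf_dvd_of_pow_eq_one hu
  have h3 : i.Coprime (orderOf u) := (Nat.Coprime.pow_right j hi).coprime_dvd_right h2
  have h0 : 0 < orderOf u := Nat.pos_of_dvd_of_pos h2 (pow_pos hr.pos _)
  by_cases h7 : orderOf u = 1
  · rw [orderOf_eq_one_iff] at h7
    exact ⟨0, by rw [h7, pow_zero]⟩
  obtain ⟨m, -, hm⟩ := Nat.exists_mul_mod_eq_one_of_coprime h3 (by omega)
  exact ⟨m, by rw [← pow_mul, ← pow_mod_orderOf, hm, pow_one]⟩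

include H C in
/-- **The `r`-elements of the centraliser of a set of toral elements.** -/
theorem mem_MMZ [Finite W] [hr : Fact r.Prime] (hA : ChAdd cs h (TL T) χ) (hG : GG cs h (TL T) (XL X) = ⊤)
    {Z : Set Y} (hfin : Z.Finite) (hZ : Z ⊆ TL T) {l : ℕ} (hl : l.Prime) (hlr : l ≠ r)
    (hZl : ∀ t ∈ Z, ∃ m : ℕ, t ^ l ^ m = 1) {u : Y} (hu : ∀ t ∈ Z, u * t = t * u) (hur : ∃ j, u ^ r ^ j = 1) :
    u ∈ MMZ cs h (XL X) χ Z := by
  obtain ⟨j, hj⟩ := hur
  obtain ⟨m, hm, w, hw, k, hk, hkZ, e⟩ := exists_formPZ H C hG hA hfin hZ hu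
  obtain ⟨a, ha⟩ := isPGroup_PPZ C hA hZ hl hZl hw
  -- `k` normalises `MMZ`
  have hkM : ∀ i : ℕ, ∀ y ∈ MMZ cs h (XL X) χ Z, k ^ i * y * (k ^ i)⁻¹ ∈ MMZ cs h (XL X) χ Z := by
    intro i
    induction i with
    | zero =>
      intro y hy
      rw [pow_zero, one_mul, inv_one, mul_one]; exact hy
    | succ i ih =>
      intro y hy
      have h2 := MMZ_conj H C (ι := Z) (s := fun i => (i : Y)) (t := fun i => (i : Y)) (fun i => hZ i.2) hk
        (fun i => hkZ i i.2) (y := y) (by rw [Subtype.range_coe]; exact hy)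
      rw [Subtype.range_coe] at h2
      have h3 := ih _ h2
      have e1 : k ^ i * (k * y * k⁻¹) * (k ^ i)⁻¹ = k ^ (i + 1) * y * (k ^ (i + 1))⁻¹ := by
        rw [pow_succ]; group
      rwa [e1] at h3
  have h1 : ∀ i : ℕ, u ^ i * (k ^ i)⁻¹ ∈ MMZ cs h (XL X) χ Z := by
    intro i
    induction i with
    | zero => rw [pow_zero, pow_zero, inv_one, one_mul]; exact one_mem _
    | succ i ih =>
      have h2 : u ^ (i + 1) * (k ^ (i + 1))⁻¹ = (u ^ i * (k ^ i)⁻¹) * (k ^ i * m * (k ^ i)⁻¹) := by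
        rw [pow_succ, pow_succ, e]; group
      rw [h2]
      exact mul_mem ih (hkM i m hm)
  -- a power of `k` is in the torus
  have h3 : ∀ i : ℕ, Rp cs H.nsys (w ^ i) (k ^ i) := by
    intro i
    induction i with
    | zero => rw [pow_zero, pow_zero]; exact rp_one
    | succ i ih => rw [pow_succ, pow_succ]; exact ih.mul hk
  have h4 := h3 (l ^ a)
  rw [ha] at h4
  obtain ⟨i, hi⟩ := H.mem_TL.1 h4.mem_of_one
  have h5 := (H.rgd i).tcop
  have h6 : (k ^ l ^ a) ^ Nat.card ↥(T i) = 1 := by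
    have h7 : (⟨k ^ l ^ a, hi⟩ : ↥(T i)) ^ Nat.card ↥(T i) = 1 := pow_card_eq_one'
    exact congrArg Subtype.val h7
  rw [← pow_mul] at h6
  have h8 := h1 (l ^ a * Nat.card ↥(T i))
  rw [h6, inv_one, mul_one] at h8
  obtain ⟨s, hs⟩ := exists_pow_eq hr.out hj (i := l ^ a * Nat.card ↥(T i))
    (Nat.Coprime.mul_left (Nat.Coprime.pow_left a ((Nat.coprime_primes hl hr.out).2 hlr)) h5)
  rw [hs]
  exact pow_mem h8 s

end Tower

open CoxeterSystem Cfsg Cfsg.Lie Cfsg.Lie.ChevalleyDatum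
open Cfsg.Agent.ChevalleyStructure Cfsg.Agent.ChevalleyStructure.Elts Cfsg.Agent.ChevalleyStructure.CoxeterGeom
  Cfsg.Agent.ChevalleyStructure.CoxeterGeomTypes Cfsg.Agent.ChevalleyStructure.NPerm
open Cfsg.Agent.Tits.Roots Cfsg.Agent.Tits.Core Cfsg.Agent.Nodes Cfsg.Agent.Nodes.Reps Cfsg.Agent.Nodes.BNOf
  Cfsg.Agent.Nodes.SubComb Cfsg.Agent.Nodes.RGDChev Cfsg.Agent.Nodes.Bruhat Cfsg.Agent.Nodes.Coroot
open Cfsg.Agent.KFacts.RgdField Cfsg.Agent.KFacts.RgdChevCoord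
open Cfsg.Agent.BpExc Cfsg.Agent.BpExc.TorCent Cfsg.Agent.BpExc.TorChev Cfsg.Agent.BpExc.Tow
  Cfsg.Agent.BpExc.TowChev Cfsg.Agent.BpExc.Fr Cfsg.Agent.BpExc.LangFr
open Cfsg.Agent.H469.Exc Cfsg.Agent.H316.U6 Cfsg.Agent.H818.Gen Cfsg.Agent.H818.Mono Cfsg.Agent.H696.GmnToral
open Cfsg.Agent.H225.Gen Cfsg.Agent.H496.Mono
open Cfsg.Agent.H818.StrP.UTab Cfsg.Agent.H818.StrP.UAct
open Cfsg.Agent.H795.SetCent
open Cfsg.Agent.H129.TorusChar (cX IsMC cX_root cX_mul cX_pow cX_one cX_inj isMC_cX exists_cX)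

universe v

section Sup

variable {D : ChevalleyDatum} {l : ℕ} {M : CoxeterMatrix (Fin l)} (hp : IsType D l M) {r : ℕ} [hr : Fact r.Prime]

/-- the roots trivial on `F` -/
def S0 (hp : IsType D l M) (r : ℕ) [Fact r.Prime] (F : Subgroup ↥(D.group (KK r))) : Set (Fin l → ℤ) :=
  {a | IsRoot M.toCoxeterSystem hp.isCartan a ∧ ∀ t ∈ F, ch hp a t = 1}

/-- **The `r`-elements of the centraliser of a toral `p`-group.** -/
theorem mem_Sup {F : Subgroup ↥(D.group (KK r))} [Finite ↥F] (hFT : F ≤ TT D (KK r)) {p : ℕ} (hpp : p.Prime)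
    (hpr : p ≠ r) (hFp : ∀ t ∈ F, ∃ m : ℕ, t ^ p ^ m = 1) {u : ↥(D.group (KK r))} (hu : ∀ t ∈ F, u * t = t * u)
    (hur : ∃ j, u ^ r ^ j = 1) : u ∈ RGD.Sup (XX D l (KK r)) (S0 hp r F) := by
  have := finite_W hp M.toCoxeterSystem
  have hk := locFin r
  have H := tow (k := KK r) hp M.toCoxeterSystem hk r
  have C := coordsL (k := KK r) hp M.toCoxeterSystem hk r
  have hA := chAddL (k := KK r) hp M.toCoxeterSystem hk r
  have hG := GG_eq_top (k := KK r) hp M.toCoxeterSystem hk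
  have hTL := TL_eq (k := KK r) hp hk
  have hXL := XL_eq (k := KK r) hp hk
  have C' : Coords M.toCoxeterSystem hp.isCartan (TL (Tj hp (k := KK r))) (nc hp (KK r)) (XL (Xj hp (k := KK r)))
      (xc hp) (ch hp) := by
    rw [hTL, hXL]; exact C
  have hA' : ChAdd M.toCoxeterSystem hp.isCartan (TL (Tj hp (k := KK r))) (ch (K := KK r) hp) := by rw [hTL]; exact hA
  have h := mem_MMZ H C' hA' hG (Z := (F : Set ↥(D.group (KK r)))) (Set.toFinite _)
    (fun t ht => by rw [hTL]; exact hFT ht) hpp hpr hFp hu hur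
  rw [hXL] at h
  exact h

end Sup

section General

variable {D : ChevalleyDatum} {l : ℕ} {M : CoxeterMatrix (Fin l)} {hp : IsType D l M} {r q : ℕ} [hr : Fact r.Prime]
  {K₀ : Type v} [Group K₀]

/-- **The end, general form.** -/
theorem end_general (m : MData hp r q K₀) (h : HiList D) [IsSimpleGroup K₀] (hq : 3 ≤ q) (hG2 : D = chevG2 → 4 ≤ q)
    {p : ℕ} [hpp : Fact p.Prime] (hpr : p ≠ r) {E E' : Subgroup ↥(D.group (KK r))} {z : ↥(D.group (KK r))}
    {γ : (Fin l → ℤ) ≃+ (Fin l → ℤ)} (_F : NFrame m E z γ) (hET : E' ≤ TT D (KK r)) (hE : IsElementaryAbelian p E')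
    (hτ : ∀ t ∈ E', (MulAut.conj (z⁻¹ * m.σ z) * m.σ) t = t) (hE2 : p ≤ Nat.card ↥E') (hNS : ¬ p ∣ q ^ 2 + 1 ∨ NS m)
    (hS : ∀ F' ≤ E', F'.relIndex E' = p → InS r l (MulAut.conj (z⁻¹ * m.σ z) * m.σ) (HZ m p E z) (S0 hp r F')) :
    GamY m.ι p E = ⊤ := by
  have hco : ∀ y : ↥(D.group (KK r)), MulAut.conj z⁻¹ (MulAut.conj z y) = y := by
    intro y
    show z⁻¹ * (z * y * z⁻¹) * z⁻¹⁻¹ = y
    group
  have hco' : ∀ y : ↥(D.group (KK r)), MulAut.conj z (MulAut.conj z⁻¹ y) = y := by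
    intro y
    show z * (z⁻¹ * y * z⁻¹⁻¹) * z⁻¹ = y
    group
  set F₀ : Subgroup ↥(D.group (KK r)) := E'.map (MulAut.conj z).toMonoidHom with hF₀
  have hmem : ∀ {y : ↥(D.group (KK r))}, y ∈ F₀ ↔ z⁻¹ * y * z ∈ E' := by
    intro y
    constructor
    · rintro ⟨x, hx, rfl⟩
      have h1 : z⁻¹ * ((MulAut.conj z).toMonoidHom x) * z = x := by
        show z⁻¹ * (z * x * z⁻¹) * z = x
        group
      rwa [h1]
    · intro hy
      refine ⟨_, hy, ?_⟩
      show z * (z⁻¹ * y * z) * z⁻¹ = y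
      group
  have hel : IsElementaryAbelian p F₀ := by
    refine ⟨?_, ?_⟩
    · have := hE.1
      constructor
      constructor
      rintro ⟨_, a, ha, rfl⟩ ⟨_, b, hb, rfl⟩
      have h1 : (⟨a, ha⟩ : ↥E') * ⟨b, hb⟩ = ⟨b, hb⟩ * ⟨a, ha⟩ := this.is_comm.comm _ _
      have h2 : a * b = b * a := congrArg Subtype.val h1
      refine Subtype.ext ?_
      show (MulAut.conj z).toMonoidHom a * (MulAut.conj z).toMonoidHom b =
        (MulAut.conj z).toMonoidHom b * (MulAut.conj z).toMonoidHom a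
      rw [← map_mul, h2, map_mul]
    · rintro _ ⟨a, ha, rfl⟩
      rw [← map_pow, hE.2 a ha, map_one]
  have hfix : ∀ y ∈ F₀, m.σ y = y := by
    intro y hy
    have h1 := frame_fix.1 (hτ _ (hmem.1 hy))
    have h2 : z * (z⁻¹ * y * z) * z⁻¹ = y := by group
    rwa [h2] at h1
  have hcard : Nat.card ↥F₀ = Nat.card ↥E' := (Nat.card_congr (E'.equivMapOfInjective
    (MulAut.conj z).toMonoidHom (MulAut.conj z).injective).toEquiv).symm
  have hfinF : Finite ↥F₀ := finite_of_fix m hfix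
  have hfin : Finite ↥E' := Finite.of_equiv _ (E'.equivMapOfInjective (MulAut.conj z).toMonoidHom
    (MulAut.conj z).injective).symm.toEquiv
  refine x12_r m h hq hG2 hel hfix (by rw [hcard]; exact hE2) (z := z⁻¹) (fun a ha => ?_) hNS ?_
  · have h1 := hET (hmem.1 ha)
    rwa [inv_inv]
  · intro F' hF' hi a har hac
    have hF1 : F'.map (MulAut.conj z⁻¹).toMonoidHom ≤ E' := by
      rintro _ ⟨y, hy, rfl⟩
      have h1 := hmem.1 (hF' hy)
      show z⁻¹ * y * z⁻¹⁻¹ ∈ E'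
      rwa [inv_inv]
    have hi' : (F'.map (MulAut.conj z⁻¹).toMonoidHom).relIndex E' = p := by
      have h1 : (F'.map (MulAut.conj z⁻¹).toMonoidHom).relIndex (F₀.map (MulAut.conj z⁻¹).toMonoidHom) = p := by
        rw [Subgroup.relIndex_map_map_of_injective _ _ (MulAut.conj z⁻¹).injective, hi]
      have h2 : F₀.map (MulAut.conj z⁻¹).toMonoidHom = E' := by
        rw [hF₀, Subgroup.map_map]
        have : ((MulAut.conj z⁻¹).toMonoidHom).comp ((MulAut.conj z).toMonoidHom) = MonoidHom.id _ :=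
          MonoidHom.ext hco
        rw [this, Subgroup.map_id]
      rwa [h2] at h1
    have h1 := hS _ hF1 hi' (z⁻¹ * m.ι a * z)
    have hur : ∃ j : ℕ, (z⁻¹ * m.ι a * z) ^ r ^ j = 1 := by
      obtain ⟨j, hj⟩ := har
      refine ⟨j, ?_⟩
      have h2 : z⁻¹ * m.ι a * z = z⁻¹ * m.ι a * z⁻¹⁻¹ := by rw [inv_inv]
      rw [h2, conj_pow, ← map_pow, hj, map_one, mul_one, mul_inv_cancel]
    have hfinF' : Finite ↥(F'.map (MulAut.conj z⁻¹).toMonoidHom) :=
      Finite.of_injective _ (Subgroup.inclusion_injective hF1)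
    have h3 := h1 (mem_Sup hp (fun x hx => hET (hF1 hx)) hpp.out hpr (fun t ht => ⟨1, by
        rw [pow_one]; exact hE.2 t (hF1 ht)⟩) (by
        rintro _ ⟨y, hy, rfl⟩
        show (z⁻¹ * m.ι a * z) * (z⁻¹ * y * z⁻¹⁻¹) = (z⁻¹ * y * z⁻¹⁻¹) * (z⁻¹ * m.ι a * z)
        have h4 := hac y hy
        calc (z⁻¹ * m.ι a * z) * (z⁻¹ * y * z⁻¹⁻¹) = z⁻¹ * (m.ι a * y) * z := by group
          _ = z⁻¹ * (y * m.ι a) * z := by rw [h4]
          _ = _ := by group) hur) (by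
        rw [frame_fix]
        have h5 : z * (z⁻¹ * m.ι a * z) * z⁻¹ = m.ι a := by group
        rw [h5]
        exact m.fix a) hur
    obtain ⟨b, hb, hb'⟩ := mem_HZ.1 h3
    have h6 : m.ι b = m.ι a := by rw [hb']; group
    rw [← m.inj h6]
    exact hb

end General

/-! ### the case `γ = ± 1` -/

/-- a root which modulo `p` is supported at one node is `±` the simple root -/
def ChkP (D : ChevalleyDatum) (l p : ℕ) : Prop :=
  ∀ s < D.nroots, ∀ i : Fin l, (∀ k, k ≠ i → vec D l s k % (p : ℤ) = 0) →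
    (∀ k, k ≠ i → vec D l s k = 0) ∧ (vec D l s i = 1 ∨ vec D l s i = -1)

instance decChkP (D : ChevalleyDatum) (l p : ℕ) : Decidable (ChkP D l p) := by unfold ChkP; infer_instance

theorem chkP_F4 : ChkP chevF4 4 3 := by decide +kernel
theorem chkP_E6 : ChkP chevE6 6 3 := by decide +kernel
theorem chkP_E7 : ChkP chevE7 7 3 := by decide +kernel
theorem chkP_E8 : ChkP chevE8 8 3 := by decide +kernel
theorem chkP_E8' : ChkP chevE8 8 5 := by decide +kernel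

section Mod

variable {D : ChevalleyDatum} {l : ℕ} {M : CoxeterMatrix (Fin l)} (hp : IsType D l M) {p : ℕ}
local notation "cs" => M.toCoxeterSystem

include hp in
theorem root_mod (hpp : p.Prime) (hch : ChkP D l p) {a : Fin l → ℤ} (ha : IsRoot cs hp.isCartan a) :
    ∃ k, ¬ (p : ℤ) ∣ a k := by
  by_contra hcon
  push Not at hcon
  obtain ⟨w, i, rfl⟩ := id ha
  obtain ⟨s, hs, e⟩ := (isRoot_iff hp cs _).1 ha
  rw [← e] at hcon
  have h1 := (hch s hs i fun k _ => Int.emod_eq_zero_of_dvd (hcon k)).2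
  have h2 : (1 : ℤ) < p := by exact_mod_cast hpp.one_lt
  rcases h1 with h1 | h1
  · have h3 := hcon i
    rw [h1] at h3
    exact absurd (Int.le_of_dvd one_pos h3) (not_le.2 h2)
  · have h3 := hcon i
    rw [h1, dvd_neg] at h3
    exact absurd (Int.le_of_dvd one_pos h3) (not_le.2 h2)

/-- **Congruent roots.** -/
theorem pm_of_mod (hch : ChkP D l p) {a b x : Fin l → ℤ} (ha : IsRoot cs hp.isCartan a)
    (hb : IsRoot cs hp.isCartan b) {j : ℤ} (e : b = j • a + (p : ℤ) • x) : b = a ∨ b = -a := by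
  obtain ⟨w, i, rfl⟩ := ha
  have hb' := hb.act w⁻¹
  obtain ⟨s, hs, e'⟩ := (isRoot_iff hp cs _).1 hb'
  have e1 : rep cs hp.isCartan w⁻¹ b = j • sr i + (p : ℤ) • rep cs hp.isCartan w⁻¹ x := by
    rw [e, map_add, map_zsmul, map_zsmul, rep_inv_apply]
  have h1 : ∀ k, k ≠ i → vec D l s k % (p : ℤ) = 0 := by
    intro k hk
    rw [e', e1]
    rw [Pi.add_apply, Pi.smul_apply, Pi.smul_apply, sr_ne hk, smul_zero, zero_add, smul_eq_mul]
    exact Int.mul_emod_right _ _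
  obtain ⟨h2, h3⟩ := hch s hs i h1
  have key : ∀ c : ℤ, vec D l s i = c → rep cs hp.isCartan w⁻¹ b = c • sr i := by
    intro c hc
    rw [← e']
    funext k
    by_cases hk : k = i
    · rw [hk, hc, Pi.smul_apply, sr_self, smul_eq_mul, mul_one]
    · rw [h2 k hk, Pi.smul_apply, sr_ne hk, smul_zero]
  rcases h3 with h3 | h3
  · left
    have h4 := key 1 h3
    rw [one_smul] at h4
    rw [← h4, rep_apply_inv]
  · right
    have h4 := key (-1) h3
    rw [neg_one_smul] at h4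
    have h5 : (sr i : Fin l → ℤ) = -(rep cs hp.isCartan w⁻¹ b) := by rw [h4, neg_neg]
    rw [h5, map_neg, rep_apply_inv, neg_neg]

end Mod

section Eps

variable {D : ChevalleyDatum} {l : ℕ} {M : CoxeterMatrix (Fin l)} (hp : IsType D l M) {r : ℕ} [hr : Fact r.Prime]
local notation "cs" => M.toCoxeterSystem

/-- the elements of `T` of order dividing `p` -/
def TP (hp : IsType D l M) (r p : ℕ) [Fact r.Prime] : Subgroup ↥(D.group (KK r)) where
  carrier := {t | t ∈ TT D (KK r) ∧ t ^ p = 1}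
  one_mem' := ⟨one_mem _, one_pow _⟩
  mul_mem' := by
    rintro a b ⟨ha, ha'⟩ ⟨hb, hb'⟩
    refine ⟨mul_mem ha hb, ?_⟩
    rw [(show Commute a b from TT_comm hp a ha b hb).mul_pow, ha', hb', one_mul]
  inv_mem' := by
    rintro a ⟨ha, ha'⟩
    exact ⟨inv_mem ha, by rw [inv_pow, ha', inv_one]⟩

theorem TP_el {p : ℕ} : IsElementaryAbelian p (TP hp r p) := by
  refine ⟨⟨⟨?_⟩⟩, fun y hy => hy.2⟩
  rintro ⟨a, ha⟩ ⟨b, hb⟩
  exact Subtype.ext (TT_comm hp a ha.1 b hb.1)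

/-- **The coordinate elements of the torus.** -/
theorem exists_coords {d : ℕ} {B : Fin l → Fin l → ℤ} (hB : H129.TorusChar.InvC D l d B) (hd : d ≠ 0) {p : ℕ}
    (hpp : p.Prime) (hpr : p ≠ r) : ∃ ζ : KK r, IsPrimitiveRoot ζ p ∧ ∃ t : Fin l → ↥(D.group (KK r)),
      ∀ j, t j ∈ TP hp r p ∧ ∀ x, cX hp (t j) x = ζ ^ (x j) := by
  have hrk : (p : KK r) ≠ 0 := by
    rw [Ne, CharP.cast_eq_zero_iff (KK r) r]
    intro h1
    exact hpr ((Nat.prime_dvd_prime_iff_eq hr.out hpp).1 h1).symm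
  have : NeZero (p : KK r) := ⟨hrk⟩
  obtain ⟨u, hu⟩ := HasEnoughRootsOfUnity.exists_primitiveRoot (KK r) p
  have hu0 : u ≠ 0 := hu.ne_zero hpp.ne_zero
  have key : ∀ j : Fin l, ∃ t ∈ TT D (KK r), ∀ x, cX hp t x = u ^ (x j) := by
    intro j
    have hMC : IsMC (fun x : Fin l → ℤ => u ^ (x j)) :=
      ⟨by
        show u ^ ((0 : Fin l → ℤ) j) = 1
        rw [Pi.zero_apply, zpow_zero],
      fun x y => by
        show u ^ ((x + y) j) = u ^ (x j) * u ^ (y j)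
        rw [Pi.add_apply, zpow_add₀ hu0]⟩
    obtain ⟨t, ht, hcX⟩ := exists_cX hp hB hd hMC fun i =>
      IsAlgClosed.exists_pow_nat_eq _ (Nat.pos_of_ne_zero hd)
    exact ⟨t, ht, hcX⟩
  choose t ht hcX using key
  refine ⟨u, hu, t, fun j => ⟨⟨ht j, ?_⟩, hcX j⟩⟩
  refine cX_inj hp (pow_mem (ht j) p) (one_mem _) fun i => ?_
  rw [cX_pow hp (ht j), cX_one, hcX, ← zpow_natCast, ← zpow_mul]
  rw [mul_comm, zpow_mul, zpow_natCast, hu.pow_eq_one, one_zpow]

/-- **The roots trivial on a hyperplane of `T[p]`.** -/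
theorem S0_pm {d : ℕ} {B : Fin l → Fin l → ℤ} (hB : H129.TorusChar.InvC D l d B) (hd : d ≠ 0) {p : ℕ}
    (hpp : p.Prime) (hpr : p ≠ r) (hch : ChkP D l p) {F : Subgroup ↥(D.group (KK r))} (hF : F ≤ TP hp r p)
    (hi : F.relIndex (TP hp r p) = p) {a b : Fin l → ℤ} (ha : a ∈ S0 hp r F) (hb : b ∈ S0 hp r F) :
    b = a ∨ b = -a := by
  obtain ⟨ζ, hζ, t, ht⟩ := exists_coords hp hB hd hpp hpr
  have hone : ∀ z : ℤ, ζ ^ z = 1 ↔ (p : ℤ) ∣ z := fun z => hζ.zpow_eq_one_iff_dvd z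
  have hζ0 : ζ ≠ 0 := hζ.ne_zero hpp.ne_zero
  -- an element outside `F`
  obtain ⟨t₀, ht₀, ht₀F⟩ : ∃ t₀ ∈ TP hp r p, t₀ ∉ F := by
    by_contra hcon
    push Not at hcon
    have h1 : F.relIndex (TP hp r p) = 1 := Subgroup.relIndex_eq_one.2 hcon
    rw [hi] at h1
    exact hpp.one_lt.ne' h1
  -- subgroups containing `F` and `t₀` contain `T[p]`
  have hsup : ∀ L : Subgroup ↥(D.group (KK r)), F ≤ L → t₀ ∈ L → TP hp r p ≤ L := by
    intro L h1 h2
    have h3 : F ≤ F ⊔ Subgroup.zpowers t₀ := le_sup_left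
    have h4 : F ⊔ Subgroup.zpowers t₀ ≤ TP hp r p := sup_le hF (by rw [Subgroup.zpowers_le]; exact ht₀)
    have h5 := Subgroup.relIndex_mul_relIndex F (F ⊔ Subgroup.zpowers t₀) (TP hp r p) h3 h4
    rw [hi] at h5
    have h6 : F.relIndex (F ⊔ Subgroup.zpowers t₀) ≠ 1 := by
      intro h7
      rw [Subgroup.relIndex_eq_one] at h7
      exact ht₀F (h7 (Subgroup.mem_sup_right (Subgroup.mem_zpowers t₀)))
    rcases (Nat.dvd_prime hpp).1 ⟨_, h5.symm⟩ with h7 | h7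
    · exact absurd h7 h6
    · rw [h7] at h5
      have h8 : (F ⊔ Subgroup.zpowers t₀).relIndex (TP hp r p) = 1 :=
        Nat.eq_of_mul_eq_mul_left hpp.pos (by rw [h5, mul_one])
      rw [Subgroup.relIndex_eq_one] at h8
      exact h8.trans (sup_le h1 (by rw [Subgroup.zpowers_le]; exact h2))
  have hcm : ∀ (c : Fin l → ℤ) (j : ℤ) (x y : ↥(D.group (KK r))), x ∈ TT D (KK r) → y ∈ TT D (KK r) →
      cX hp (x * y) c ^ j = cX hp x c ^ j * cX hp y c ^ j := by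
    intro c j x y hx hy
    rw [cX_mul hp hx hy, mul_zpow]
  -- the subgroup of the elements with `b = j a`
  let L : ℤ → Subgroup ↥(D.group (KK r)) := fun j =>
    { carrier := {x | x ∈ TT D (KK r) ∧ cX hp x b = cX hp x a ^ j}
      one_mem' := ⟨one_mem _, by rw [cX_one, cX_one, one_zpow]⟩
      mul_mem' := by
        rintro x y ⟨hx, hx'⟩ ⟨hy, hy'⟩
        exact ⟨mul_mem hx hy, by rw [cX_mul hp hx hy, hx', hy', hcm a j x y hx hy]⟩
      inv_mem' := by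
        rintro x ⟨hx, hx'⟩
        refine ⟨inv_mem hx, ?_⟩
        have h1 : cX hp x⁻¹ b * cX hp x b = 1 := by
          rw [← cX_mul hp (inv_mem hx) hx, inv_mul_cancel, cX_one]
        have h2 : cX hp x⁻¹ a ^ j * cX hp x a ^ j = 1 := by
          rw [← hcm a j _ _ (inv_mem hx) hx, inv_mul_cancel, cX_one, one_zpow]
        rw [← hx', ← h1] at h2
        exact (mul_right_cancel₀ ((isMC_cX hp hx).ne_zero b) h2).symm }
  have hFa : ∀ x ∈ F, cX hp x a = 1 := fun x hx => by rw [cX_root hp cs (hF hx).1 ha.1]; exact ha.2 x hx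
  have hFb : ∀ x ∈ F, cX hp x b = 1 := fun x hx => by rw [cX_root hp cs (hF hx).1 hb.1]; exact hb.2 x hx
  have hpw : ∀ c : Fin l → ℤ, cX hp t₀ c ^ p = 1 := fun c => by
    rw [← cX_pow hp ht₀.1, ht₀.2, cX_one]
  have ha1 : cX hp t₀ a ≠ 1 := by
    intro h1
    obtain ⟨k, hk⟩ := root_mod hp hpp hch ha.1
    let L' : Subgroup ↥(D.group (KK r)) :=
      { carrier := {x | x ∈ TT D (KK r) ∧ cX hp x a = 1}
        one_mem' := ⟨one_mem _, cX_one hp a⟩
        mul_mem' := by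
          rintro x y ⟨hx, hx'⟩ ⟨hy, hy'⟩
          exact ⟨mul_mem hx hy, by rw [cX_mul hp hx hy, hx', hy', one_mul]⟩
        inv_mem' := by
          rintro x ⟨hx, hx'⟩
          refine ⟨inv_mem hx, ?_⟩
          have h1 : cX hp x⁻¹ a * cX hp x a = 1 := by
            rw [← cX_mul hp (inv_mem hx) hx, inv_mul_cancel, cX_one]
          rwa [hx', mul_one] at h1 }
    have h2 : t k ∈ L' := hsup L' (fun x hx => ⟨(hF hx).1, hFa x hx⟩) ⟨ht₀.1, h1⟩ (ht k).1
    have h3 : cX hp (t k) a = 1 := h2.2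
    rw [(ht k).2, hone] at h3
    exact hk h3
  have hpf : Fact p.Prime := ⟨hpp⟩
  have hne0 : NeZero p := ⟨hpp.ne_zero⟩
  have hprim : IsPrimitiveRoot (cX hp t₀ a) p := by
    rw [IsPrimitiveRoot.iff_orderOf]
    exact (orderOf_eq_prime (hpw a) ha1)
  obtain ⟨j, -, hj⟩ := hprim.eq_pow_of_pow_eq_one (hpw b)
  have h1 : ∀ k, (p : ℤ) ∣ b k - j * a k := by
    intro k
    have h2 : t k ∈ L j := hsup (L j) (fun x hx => ⟨(hF hx).1, by rw [hFa x hx, hFb x hx, one_zpow]⟩)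
      ⟨ht₀.1, by rw [zpow_natCast, hj]⟩ (ht k).1
    have h3 : cX hp (t k) b = cX hp (t k) a ^ (j : ℤ) := h2.2
    rw [(ht k).2, (ht k).2, ← zpow_mul] at h3
    rw [← hone, zpow_sub₀ hζ0, h3, mul_comm, div_self (zpow_ne_zero _ hζ0)]
  choose x hx using h1
  refine pm_of_mod hp hch ha.1 hb.1 (j := (j : ℤ)) (x := x) ?_
  funext k
  rw [Pi.add_apply, Pi.smul_apply, Pi.smul_apply, smul_eq_mul, smul_eq_mul, ← hx k]
  ring

/-- the `p`-torsion of the torus is fixed -/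
theorem fix_TP {e : ℕ} {τ : MulAut ↥(D.group (KK r))} {γ : (Fin l → ℤ) ≃+ (Fin l → ℤ)} (hτ : IsFrob r e τ)
    (F : Fr cs hp.isCartan (TT D (KK r)) (XX D l (KK r)) τ γ) {ε : ℤ} {p : ℕ} (hε : Eps p (r ^ e) ε)
    (hγ : ∀ x, γ x = ε • x) {t : ↥(D.group (KK r))} (ht : t ∈ TP hp r p) : τ t = t := by
  have hpw : ∀ c : Fin l → ℤ, cX hp t c ^ p = 1 := fun c => by
    rw [← cX_pow hp ht.1, ht.2, cX_one]
  refine cX_inj hp ((F.tor t).2 ht.1) ht.1 fun i => ?_
  have hri := isRoot_sr cs hp.isCartan i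
  have h0 := (isMC_cX hp ht.1).ne_zero (sr i)
  obtain ⟨h1, h2⟩ := hε
  have hk := locFin r
  obtain ⟨c, hc⟩ := h2
  rcases h1 with rfl | rfl
  · have h3 := fr_ch hp cs hk hτ F hri ht.1
    rw [hγ, one_smul, ← cX_root hp cs ((F.tor t).2 ht.1) hri, ← cX_root hp cs ht.1 hri] at h3
    rw [h3, ← zpow_natCast]
    have h4 : ((r ^ e : ℕ) : ℤ) = 1 + (p : ℤ) * c := by rw [← hc]; ring
    rw [h4, zpow_add₀ h0, zpow_one, zpow_mul, zpow_natCast, hpw, one_zpow, mul_one]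
  · have h3 := fr_ch hp cs hk hτ F hri.neg ht.1
    rw [hγ, neg_smul_neg, one_smul, ← cX_root hp cs ((F.tor t).2 ht.1) hri, ← cX_root hp cs ht.1 hri.neg,
      (isMC_cX hp ht.1).neg] at h3
    rw [h3, inv_pow, ← zpow_natCast, ← zpow_neg]
    have h4 : -((r ^ e : ℕ) : ℤ) = 1 + (p : ℤ) * (-c) := by
      have h5 : ((r ^ e : ℕ) : ℤ) = (p : ℤ) * c - 1 := by rw [← hc]; ring
      rw [h5]; ring
    rw [h4, zpow_add₀ h0, zpow_one, zpow_mul, zpow_natCast, hpw, one_zpow, mul_one]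

variable {hp} {q : ℕ} {K₀ : Type v} [Group K₀]

theorem finite_frame (m : MData hp r q K₀) {z : ↥(D.group (KK r))} {E' : Subgroup ↥(D.group (KK r))}
    (hτ : ∀ t ∈ E', (MulAut.conj (z⁻¹ * m.σ z) * m.σ) t = t) : Finite ↥E' := by
  have h1 : Finite ↥(E'.map (MulAut.conj z).toMonoidHom) := finite_of_fix m (by
    rintro _ ⟨y, hy, rfl⟩
    exact frame_fix.1 (hτ y hy))
  exact Finite.of_equiv _ (E'.equivMapOfInjective (MulAut.conj z).toMonoidHom (MulAut.conj z).injective).symm.toEquiv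

theorem not_dvd_sq {p q : ℕ} (hp3 : 3 ≤ p) {ε : ℤ} (hε : Eps p q ε) : ¬ p ∣ q ^ 2 + 1 := by
  rintro h1
  obtain ⟨h2, c, hc⟩ := hε
  have h3 : (p : ℤ) ∣ (q : ℤ) ^ 2 + 1 := by exact_mod_cast h1
  have h4 : (q : ℤ) = ε + p * c := by rw [← hc]; ring
  have h5 : (p : ℤ) ∣ 2 := by
    have h6 : (2 : ℤ) = ((q : ℤ) ^ 2 + 1) - p * (2 * ε * c + p * c ^ 2) := by
      rw [h4]
      rcases h2 with rfl | rfl <;> ring
    rw [h6]
    exact dvd_sub h3 (dvd_mul_right _ _)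
  have h7 := Int.le_of_dvd (by norm_num) h5
  omega

/-- **The end for `γ = ± 1`.** -/
theorem end_eps (m : MData hp r q K₀) (h : HiList D) [IsSimpleGroup K₀] (hq : 3 ≤ q) (hG2 : D = chevG2 → 4 ≤ q)
    {d : ℕ} {B : Fin l → Fin l → ℤ} (hB : H129.TorusChar.InvC D l d B) (hd : d ≠ 0)
    {p : ℕ} [hpp : Fact p.Prime] (hp3 : 3 ≤ p) (hpr : p ≠ r) (hch : ChkP D l p)
    {E : Subgroup ↥(D.group (KK r))} {z : ↥(D.group (KK r))}
    {γ : (Fin l → ℤ) ≃+ (Fin l → ℤ)} (F : NFrame m E z γ) {ε : ℤ} (hε : Eps p q ε) (hγ : ∀ x, γ x = ε • x)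
    (hS : ∀ a, IsRoot M.toCoxeterSystem hp.isCartan a →
      InS r l (MulAut.conj (z⁻¹ * m.σ z) * m.σ) (HZ m p E z) {a, -a}) : GamY m.ι p E = ⊤ := by
  have hfix : ∀ t ∈ TP hp r p, (MulAut.conj (z⁻¹ * m.σ z) * m.σ) t = t := fun t ht =>
    fix_TP hp (m.frob.conj_mul _) F.fr (by rw [m.hq]; exact hε) hγ ht
  have hfin := finite_frame m hfix
  refine end_general m h hq hG2 hpr F (E' := TP hp r p) (fun t ht => ht.1) (TP_el hp) hfix ?_
    (Or.inl (not_dvd_sq hp3 hε)) ?_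
  · obtain ⟨ζ, hζ, t, ht⟩ := exists_coords hp hB hd hpp.out hpr
    have h1 := orderOf_dvd_natCard (⟨t (nd h hp), (ht _).1⟩ : ↥(TP hp r p))
    have h2 : orderOf (⟨t (nd h hp), (ht _).1⟩ : ↥(TP hp r p)) = p := by
      refine orderOf_eq_prime (Subtype.ext (ht _).1.2) fun h3 => ?_
      have h4 : t (nd h hp) = 1 := congrArg Subtype.val h3
      have h5 := (ht (nd h hp)).2 (sr (nd h hp))
      rw [h4, cX_one, sr_self, zpow_one] at h5
      rw [← h5] at hζ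
      exact hpp.out.one_lt.ne' (hζ.eq_orderOf.trans orderOf_one)
    rw [h2] at h1
    exact Nat.le_of_dvd Nat.card_pos h1
  · intro F' hF' hi u hu hτu hur
    by_cases hne : (S0 hp r F').Nonempty
    · obtain ⟨a, ha⟩ := hne
      refine hS a ha.1 u (RGD.Sup_mono (fun b hb => ?_) hu) hτu hur
      rcases S0_pm hp hB hd hpp.out hpr hch hF' hi ha hb with rfl | rfl
      · exact Or.inl rfl
      · exact Or.inr rfl
    · rw [Set.not_nonempty_iff_eq_empty] at hne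
      rw [hne, OppDec.Sup_empty, Subgroup.mem_bot] at hu
      rw [hu]
      exact one_mem _

end Eps

theorem not_hi_B2 : ¬ HiList chevB2 := by
  have hne : ∀ {D D' : ChevalleyDatum}, D.nroots ≠ D'.nroots → D ≠ D' := fun h e => h (e ▸ rfl)
  simp only [HiList, List.mem_cons, List.not_mem_nil, or_false, not_or]
  exact ⟨hne (by decide +kernel), hne (by decide +kernel), hne (by decide +kernel), hne (by decide +kernel),
    hne (by decide +kernel), hne (by decide +kernel)⟩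

/-- **M8a.** -/
theorem p8a {D : ChevalleyDatum} {l : ℕ} {M : CoxeterMatrix (Fin l)} {hp : IsType D l M} {r q : ℕ} [hr : Fact r.Prime]
    {K₀ : Type v} [Group K₀] (m : MData hp r q K₀) [IsSimpleGroup K₀] (h : HiList D) (hD2 : D ≠ chevG2)
    (hD4 : D ≠ chevD4) : P8a m := by
  intro E _ _ _ h3r hq z γ ε hε hγ F hS
  have hpr : Fact (Nat.Prime 3) := ⟨Nat.prime_three⟩
  obtain ⟨d, B, hB, hd⟩ := exists_invC hp (fun h1 => not_hi_B2 (h1 ▸ h)) hD4
  refine end_eps m h (by omega) (fun h1 => absurd h1 hD2) hB (by omega) (le_refl 3) h3r ?_ F hε hγ hS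
  have h' := hp
  simp only [IsType, typeList, List.mem_cons, List.not_mem_nil, or_false, Prod.mk.injEq] at h'
  rcases h' with ⟨rfl, h1⟩ | ⟨rfl, h1⟩ | ⟨rfl, h1⟩ | ⟨rfl, h1⟩ | ⟨rfl, h1⟩ | ⟨rfl, h1⟩ | ⟨rfl, h1⟩
  · exact absurd rfl hD2
  · exact absurd h not_hi_B2
  · exact absurd rfl hD4
  · obtain rfl : l = 4 := congrArg Sigma.fst h1
    exact chkP_F4
  · obtain rfl : l = 6 := congrArg Sigma.fst h1
    exact chkP_E6
  · obtain rfl : l = 7 := congrArg Sigma.fst h1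
    exact chkP_E7
  · obtain rfl : l = 8 := congrArg Sigma.fst h1
    exact chkP_E8

/-- **The end for `E₈`, `p = 5`, `q = ± 1` modulo `5`.** -/
theorem end_E8_five {M : CoxeterMatrix (Fin 8)} {hp : IsType chevE8 8 M} {r q : ℕ} [hr : Fact r.Prime]
    {K₀ : Type v} [Group K₀] (m : MData hp r q K₀) [IsSimpleGroup K₀] (h5r : 5 ≠ r) (hq : 3 ≤ q)
    {E : Subgroup ↥(chevE8.group (KK r))} {z : ↥(chevE8.group (KK r))}
    {γ : (Fin 8 → ℤ) ≃+ (Fin 8 → ℤ)} (F : NFrame m E z γ) {ε : ℤ} (hε : Eps 5 q ε) (hγ : ∀ x, γ x = ε • x)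
    (hS : ∀ a, IsRoot M.toCoxeterSystem hp.isCartan a →
      InS r 8 (MulAut.conj (z⁻¹ * m.σ z) * m.σ) (HZ m 5 E z) {a, -a}) : GamY m.ι 5 E = ⊤ := by
  have hpr : Fact (Nat.Prime 5) := ⟨by norm_num⟩
  have hne : ∀ {D D' : ChevalleyDatum}, D.nroots ≠ D'.nroots → D ≠ D' := fun h e => h (e ▸ rfl)
  exact end_eps m hi_E8 hq (fun h1 => absurd h1 (hne (by decide +kernel))) H129.TorusChar.invC_E8 one_ne_zero
    (by norm_num) h5r chkP_E8' F hε hγ hS

end Cfsg.Agent.H225.Mono
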